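import Cfsg.Agent.Solv.CoprimeBasic
import Mathlib.GroupTheory.PGroup
import Mathlib.GroupTheory.SpecificGroups.Cyclic
import Mathlib.GroupTheory.IndexNormal

/-! Noncyclic abelian groups; fixed-point-free action on abelian groups. -/

set_option autoImplicit false
set_option linter.style.haveILetI false

universe u v

namespace Cfsg.Agent.Solv

theorem exists_prime_torsion_of_not_cyclic {A : Type u} [CommGroup A] [Finite A] (hA : ¬ IsCyclic A) :
    ∃ p : ℕ, p.Prime ∧ p ^ 2 ≤ Nat.card (powMonoidHom p : A →* A).ker := by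
  classical
  by_contra hcon
  simp only [not_exists, not_and, not_le] at hcon
  apply hA
  haveI := Fintype.ofFinite A
  have key : ∀ n : ℕ, 0 < n → Nat.card (powMonoidHom n : A →* A).ker ≤ n := by
    intro n
    induction n using Nat.strong_induction_on with
    | _ n ih =>
    intro hn
    rcases Nat.lt_or_ge 1 n with h1 | h1
    · obtain ⟨p, hp, m, rfl⟩ := Nat.exists_prime_and_dvd (n := n) (by omega)
      haveI := Fact.mk hp
      have hm : 0 < m := Nat.pos_of_mul_pos_left hn
      have hsmall : Nat.card (powMonoidHom p : A →* A).ker ≤ p := by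
        have hP : IsPGroup p (powMonoidHom p : A →* A).ker := fun g => ⟨1, Subtype.ext (show (g : A) ^ p ^ 1 = 1 by rw [pow_one]; exact g.2)⟩
        obtain ⟨k, hk⟩ := IsPGroup.iff_card.mp hP
        have hlt := hcon p hp
        rw [hk] at hlt ⊢
        have hk2 := (Nat.pow_lt_pow_iff_right hp.one_lt).mp hlt
        calc p ^ k ≤ p ^ 1 := Nat.pow_le_pow_right hp.pos (by omega)
          _ = p := pow_one p
      let f : (powMonoidHom (p * m) : A →* A).ker →* (powMonoidHom m : A →* A).ker :=
        ((powMonoidHom p : A →* A).comp (powMonoidHom (p * m) : A →* A).ker.subtype).codRestrict _ fun g => by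
          have := g.2
          simp only [MonoidHom.mem_ker, powMonoidHom_apply] at this
          simp [← pow_mul, this]
      have hker : Nat.card f.ker ≤ Nat.card (powMonoidHom p : A →* A).ker := by
        refine Nat.card_le_card_of_injective
          (fun g => (⟨((g : (powMonoidHom (p * m) : A →* A).ker) : A), ?_⟩ : (powMonoidHom p : A →* A).ker)) ?_
        · exact congrArg Subtype.val g.2
        · intro a b hab
          exact Subtype.ext (Subtype.ext (congrArg Subtype.val hab :))
      calc Nat.card (powMonoidHom (p * m) : A →* A).ker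
          = f.ker.index * Nat.card f.ker := (Subgroup.index_mul_card _).symm
        _ = Nat.card f.range * Nat.card f.ker := by rw [Subgroup.index_ker]
        _ ≤ m * p := Nat.mul_le_mul ((Subgroup.card_le_card_group _).trans
              (ih m (lt_mul_of_one_lt_left hm hp.one_lt) hm)) (hker.trans hsmall)
        _ = p * m := mul_comm _ _
    · obtain rfl : n = 1 := by omega
      refine (le_of_eq ?_)
      rw [Subgroup.card_eq_one, Subgroup.eq_bot_iff_forall]
      intro x hx
      simpa using hx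
  refine isCyclic_of_card_pow_eq_one_le fun n hn => ?_
  refine le_trans (le_of_eq ?_) (key n hn)
  rw [Nat.card_eq_fintype_card]
  exact (Fintype.card_of_subtype _ (fun x => by simp)).symm

variable {A : Type u} [Group A] {V : Type v} [CommGroup V]

/-- A sum over a subgroup with no fixed points vanishes. -/
theorem prod_subgroup_eq_one (φ : A →* MulAut V) (hfpf : ∀ a : A, a ≠ 1 → ∀ v : V, φ a v = v → v = 1)
    (Q : Subgroup A) [Fintype Q] (hQ : Q ≠ ⊥) (v : V) : ∏ a : Q, φ (a : A) v = 1 := by
  obtain ⟨b, hb, hb1⟩ := Q.bot_or_exists_ne_one.resolve_left hQ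
  refine hfpf b hb1 _ ?_
  rw [map_prod]
  refine Fintype.prod_equiv (Equiv.mulLeft (⟨b, hb⟩ : Q)) _ _ fun a => ?_
  simp [MulAut.mul_apply]

/-- Fixed-point-free action bounds the exponent when a coset of `Q` consists of elements of order `p`. -/
theorem pow_card_eq_one_of_fpf [Finite A] (φ : A →* MulAut V)
    (hfpf : ∀ a : A, a ≠ 1 → ∀ v : V, φ a v = v → v = 1) {p : ℕ} [hp : Fact p.Prime]
    (Q : Subgroup A) [Q.Normal] (hQ : Q ≠ ⊥) {x : A} (hxQ : x ∉ Q) (hx : ∀ y ∈ Q, (x * y) ^ p = 1) (v : V) :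
    v ^ Nat.card Q = 1 := by
  classical
  haveI := Fintype.ofFinite Q
  have hz : ∀ i : Q, ∏ j ∈ Finset.range p, φ ((x * i) ^ j) v = 1 := by
    intro i
    have hne : x * (i : A) ≠ 1 := fun h => hxQ (by
      have : x = (i : A)⁻¹ := eq_inv_of_mul_eq_one_left h
      rw [this]; exact inv_mem i.2)
    refine hfpf _ hne _ ?_
    obtain ⟨k, hk⟩ : ∃ k, p = k + 1 := ⟨p - 1, by have := hp.out.one_lt; omega⟩
    rw [map_prod]
    simp only [← MulAut.mul_apply, ← map_mul, ← pow_succ']
    rw [hk, Finset.prod_range_succ, Finset.prod_range_succ' (fun j => φ ((x * i) ^ j) v), ← hk, hx _ i.2,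
      pow_zero]
  have hj : ∀ j, 0 < j → j < p → ∏ i : Q, φ ((x * i) ^ j) v = 1 := by
    intro j hj0 hjp
    have hco : Nat.Coprime j p := (Nat.coprime_of_lt_prime (by omega) hjp hp.out).symm
    have hmem : ∀ i : Q, (x ^ j)⁻¹ * (x * i) ^ j ∈ Q := by
      intro i
      rw [← QuotientGroup.eq, QuotientGroup.mk_pow, QuotientGroup.mk_pow, QuotientGroup.mk_mul_of_mem _ i.2]
    let e : Q → Q := fun i => ⟨_, hmem i⟩
    have hinj : Function.Injective e := by
      intro a b hab
      have hab' : (x * a) ^ j = (x * b) ^ j := mul_left_cancel (congrArg Subtype.val hab :)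
      have hd : ∀ i : Q, orderOf (x * (i : A)) ∣ p := fun i => orderOf_dvd_of_pow_eq_one (hx _ i.2)
      obtain ⟨t, ht⟩ := Nat.exists_mul_mod_eq_one_of_coprime hco hp.out.one_lt
      have hrec : ∀ i : Q, ((x * (i : A)) ^ j) ^ t = x * i := fun i => by
        rw [← pow_mul, ← pow_mod_orderOf, ← Nat.mod_mod_of_dvd _ (hd i), ht.2, pow_mod_orderOf, pow_one]
      exact Subtype.ext (mul_left_cancel (a := x) (by rw [← hrec a, hab', hrec b]))
    have hbij : Function.Bijective e := ⟨hinj, Finite.injective_iff_surjective.mp hinj⟩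
    calc ∏ i : Q, φ ((x * i) ^ j) v = ∏ i : Q, φ (x ^ j) (φ (i : A) v) := by
          refine Fintype.prod_bijective e hbij _ _ fun i => ?_
          rw [← MulAut.mul_apply, ← map_mul]
          congr 2
          simp [e]
      _ = 1 := by rw [← map_prod, prod_subgroup_eq_one φ hfpf Q hQ v, map_one]
  have h : ∏ j ∈ Finset.range p, ∏ i : Q, φ ((x * i) ^ j) v = 1 := by
    rw [Finset.prod_comm]
    exact Finset.prod_eq_one fun i _ => hz i
  obtain ⟨k, hk⟩ : ∃ k, p = k + 1 := ⟨p - 1, by have := hp.out.one_lt; omega⟩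
  rw [hk, Finset.prod_range_succ', Finset.prod_eq_one (fun j hjk => hj (j + 1) (by omega)
    (by rw [Finset.mem_range] at hjk; omega)), one_mul] at h
  simpa using h

/-- No noncyclic abelian group, or group of order `pq`, acts fixed-point-freely on a nontrivial abelian group. -/
theorem isCyclic_of_fpf [Finite A] [Finite V] [Nontrivial V] (φ : A →* MulAut V)
    (hfpf : ∀ a : A, a ≠ 1 → ∀ v : V, φ a v = v → v = 1)
    (hA : IsMulCommutative A ∨ ∃ p q : ℕ, p.Prime ∧ q.Prime ∧ Nat.card A = p * q) : IsCyclic A := by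
  by_contra hnc
  obtain ⟨p, hp, q, hq, Q, x, hn, hQc, hxQ, hx⟩ :
      ∃ p, p.Prime ∧ ∃ q, q.Prime ∧ ∃ Q : Subgroup A, ∃ x : A, Q.Normal ∧ Nat.card Q = q ∧ x ∉ Q ∧
        ∀ y ∈ Q, (x * y) ^ p = 1 := by
    have habel : IsMulCommutative A → ∃ p, p.Prime ∧ ∃ q, q.Prime ∧ ∃ Q : Subgroup A, ∃ x : A, Q.Normal ∧ Nat.card Q = q ∧ x ∉ Q ∧
        ∀ y ∈ Q, (x * y) ^ p = 1 := by
      intro hc
      letI : CommGroup A := { (inferInstance : Group A) with mul_comm := hc.is_comm.comm }
      obtain ⟨p, hp, hcard⟩ := exists_prime_torsion_of_not_cyclic hnc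
      haveI := Fact.mk hp
      haveI : Nontrivial (powMonoidHom p : A →* A).ker :=
        Finite.one_lt_card_iff_nontrivial.mp (lt_of_lt_of_le (Nat.one_lt_pow (by omega) hp.one_lt) hcard)
      obtain ⟨y, hy⟩ := exists_ne (1 : (powMonoidHom p : A →* A).ker)
      have hyp : (y : A) ^ p = 1 := y.2
      have hcy : Nat.card (Subgroup.zpowers (y : A)) = p := by
        rw [Nat.card_zpowers]
        exact orderOf_eq_prime hyp fun h => hy (Subtype.ext h)
      obtain ⟨x, hx, hxQ⟩ := SetLike.not_le_iff_exists.mp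
        (fun h : (powMonoidHom p : A →* A).ker ≤ Subgroup.zpowers (y : A) => by
          have h1 := hcard.trans (Subgroup.card_le_of_le h)
          rw [hcy] at h1
          have := hp.one_lt
          nlinarith)
      refine ⟨p, hp, p, hp, Subgroup.zpowers (y : A), x, Subgroup.normal_of_isMulCommutative _, hcy, hxQ, fun z hz => ?_⟩
      obtain ⟨n, rfl⟩ := Subgroup.mem_zpowers_iff.mp hz
      have hxp : x ^ p = 1 := hx
      rw [mul_pow, hxp, one_mul, ← zpow_natCast ((y : A) ^ n) p, ← zpow_mul, mul_comm, zpow_mul, zpow_natCast,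
        hyp, one_zpow]
    rcases hA with hc | ⟨p, q, hp, hq, hcard⟩
    · exact habel hc
    · wlog hpq : p ≤ q generalizing p q
      · exact this q p hq hp (by rw [hcard, mul_comm]) (le_of_not_ge hpq)
      rcases eq_or_lt_of_le hpq with rfl | hlt
      · haveI := Fact.mk hp
        exact habel (IsPGroup.isMulCommutative_of_card_eq_prime_sq (by rw [hcard, sq]))
      haveI := Fact.mk hq
      obtain ⟨y, hy⟩ := exists_prime_orderOf_dvd_card' q (G := A) ⟨p, by rw [hcard, mul_comm]⟩
      have hcQ : Nat.card (Subgroup.zpowers y) = q := (Nat.card_zpowers y).trans hy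
      have hidx : (Subgroup.zpowers y).index = p := by
        have := Subgroup.index_mul_card (Subgroup.zpowers y)
        rw [hcQ, hcard] at this
        exact Nat.eq_of_mul_eq_mul_right hq.pos this
      haveI hnorm : (Subgroup.zpowers y).Normal := Subgroup.normal_of_index_eq_minFac_card (by
        rw [hidx, hcard]
        refine (le_antisymm (Nat.minFac_le_of_dvd hp.two_le (dvd_mul_right p q)) ?_).symm
        have hpq1 : p * q ≠ 1 := by have := hp.two_le; have := hq.two_le; nlinarith
        rcases (Nat.Prime.dvd_mul (Nat.minFac_prime hpq1)).mp (Nat.minFac_dvd (p * q)) with h | h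
        · exact le_of_eq ((Nat.prime_dvd_prime_iff_eq (Nat.minFac_prime hpq1) hp).mp h).symm
        · exact hpq.trans (le_of_eq ((Nat.prime_dvd_prime_iff_eq (Nat.minFac_prime hpq1) hq).mp h).symm))
      have hne : Subgroup.zpowers y ≠ ⊤ := fun h => by
        rw [h, Subgroup.index_top] at hidx; exact hp.one_lt.ne hidx
      obtain ⟨x, hx⟩ : ∃ x, x ∉ Subgroup.zpowers y := by
        by_contra hall
        simp only [not_exists, not_not] at hall
        exact hne ((Subgroup.eq_top_iff' _).mpr hall)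
      refine ⟨p, hp, q, hq, _, x, hnorm, hcQ, hx, fun z hz => ?_⟩
      have hout : x * z ∉ Subgroup.zpowers y := fun h => hx ((Subgroup.mul_mem_cancel_right _ hz).mp h)
      have hd : orderOf (x * z) ∣ p * q := hcard ▸ orderOf_dvd_natCard _
      rw [← orderOf_dvd_iff_pow_eq_one]
      rcases (Nat.Prime.eq_one_or_self_of_dvd hq _ (Nat.gcd_dvd_right (orderOf (x * z)) q)) with h | h
      · exact (Nat.Coprime.dvd_of_dvd_mul_right h hd)
      · exfalso
        obtain ⟨m, hm⟩ : q ∣ orderOf (x * z) := h ▸ Nat.gcd_dvd_left _ _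
        rw [hm, mul_comm p q] at hd
        rcases hp.eq_one_or_self_of_dvd m (Nat.dvd_of_mul_dvd_mul_left hq.pos hd) with rfl | rfl
        · have hpi : (x * z) ^ q = 1 := by rw [mul_one] at hm; rw [← hm]; exact pow_orderOf_eq_one _
          have h2 : (QuotientGroup.mk (x * z) : A ⧸ Subgroup.zpowers y) ^ Nat.gcd q p = 1 :=
            pow_gcd_eq_one.mpr ⟨by rw [← QuotientGroup.mk_pow, hpi]; rfl,
              by rw [← hidx, Subgroup.index_eq_card]; exact pow_card_eq_one'⟩
          rw [(Nat.coprime_primes hq hp).mpr hlt.ne', pow_one] at h2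
          exact hout ((QuotientGroup.eq_one_iff _).mp h2)
        · exact hnc (isCyclic_of_orderOf_eq_card (x * z) (by rw [hm, hcard, mul_comm]))
  haveI := hn
  haveI := Fact.mk hp
  haveI := Fact.mk hq
  have hQb : Q ≠ ⊥ := fun h => by rw [h, Subgroup.card_bot] at hQc; exact hq.one_lt.ne hQc
  have hexp : ∀ v : V, v ^ q = 1 := fun v => hQc ▸ pow_card_eq_one_of_fpf φ hfpf Q hQb hxQ hx v
  have hV : IsPGroup q V := fun v => ⟨1, by rw [pow_one]; exact hexp v⟩
  obtain ⟨k, hk⟩ := IsPGroup.iff_card.mp hV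
  have hdvd : q ∣ Nat.card V := by
    cases k with
    | zero => exact absurd hk (by simpa using (Finite.one_lt_card : 1 < Nat.card V).ne')
    | succ k => rw [hk]; exact dvd_pow_self _ (Nat.succ_ne_zero k)
  letI : MulAction Q V := MulAction.compHom V (φ.comp Q.subtype)
  have hQq : IsPGroup q Q := IsPGroup.of_card (n := 1) (by rw [pow_one]; exact hQc)
  obtain ⟨v, hv, hv1⟩ := hQq.exists_fixed_point_of_prime_dvd_card_of_fixed_point V hdvd
    (a := 1) (fun a => map_one (φ (a : A)))
  obtain ⟨b, hb, hb1⟩ := Q.bot_or_exists_ne_one.resolve_left hQb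
  exact hv1 (hfpf b hb1 v (hv ⟨b, hb⟩)).symm

/-- `C_V(A) ∩ [V,A] = 1` for a coprime action on an abelian group. -/
theorem centralizer_inf_commutator_eq_bot {G : Type u} [Group G] [Finite G] {A V : Subgroup G}
    [IsMulCommutative V] (hAV : A ≤ Subgroup.normalizer (V : Set G)) (hcop : (Nat.card A).Coprime (Nat.card V)) :
    (V ⊓ Subgroup.centralizer (A : Set G)) ⊓ ⁅V, A⁆ = ⊥ := by
  classical
  haveI := Fintype.ofFinite A
  letI : CommGroup V := { (inferInstance : Group V) with mul_comm := (‹IsMulCommutative V›).is_comm.comm }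
  let φ : A →* MulAut V := (Subgroup.normalizerMonoidHom V).comp (Subgroup.inclusion hAV)
  let f : V →* V := ∏ a : A, (φ a).toMonoidHom
  have hf : ∀ v, f v = ∏ a : A, φ a v := fun v => MonoidHom.finsetProd_apply _ _ _
  have hinv : ∀ (b : A) (v : V), f (φ b v) = f v := by
    intro b v
    rw [hf, hf]
    exact Fintype.prod_equiv (Equiv.mulRight b) _ _ fun a => by simp [MulAut.mul_apply]
  have hle : ⁅V, A⁆ ≤ f.ker.map V.subtype := by
    rw [Subgroup.commutator_le]
    intro v hv a ha
    refine ⟨⟨v, hv⟩ * φ ⟨a, ha⟩ ⟨v, hv⟩⁻¹, ?_, ?_⟩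
    · rw [SetLike.mem_coe, MonoidHom.mem_ker, map_mul, hinv, map_inv, mul_inv_cancel]
    · show v * (a * v⁻¹ * a⁻¹) = v * a * v⁻¹ * a⁻¹
      group
  rw [Subgroup.eq_bot_iff_forall]
  intro c hc
  obtain ⟨hc1, hc2⟩ := Subgroup.mem_inf.mp hc
  obtain ⟨hcV, hcC⟩ := Subgroup.mem_inf.mp hc1
  obtain ⟨w, hw, hwc⟩ := hle hc2
  have hfix : ∀ a : A, φ a w = w := fun a => Subtype.ext (by
    show (a : G) * (w : G) * (a : G)⁻¹ = w
    have hwc' : (w : G) = c := hwc
    rw [hwc', Subgroup.mem_centralizer_iff.mp hcC a a.2, mul_inv_cancel_right])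
  have hpow : w ^ Nat.card A = 1 := by
    rw [SetLike.mem_coe, MonoidHom.mem_ker, hf] at hw
    simpa [hfix, Nat.card_eq_fintype_card] using hw
  have : w = 1 := by
    rw [← orderOf_eq_one_iff]
    exact Nat.eq_one_of_dvd_coprimes hcop (orderOf_dvd_of_pow_eq_one hpow) (orderOf_dvd_natCard w)
  rw [← hwc, this]; rfl

end Cfsg.Agent.Solv
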