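import Cfsg.Agent.Char.Integral
import Mathlib.LinearAlgebra.Matrix.Kronecker
import Mathlib.LinearAlgebra.Projection
import Mathlib.GroupTheory.Frattini
import Mathlib.GroupTheory.FiniteAbelian.Duality
import Mathlib.Analysis.Complex.Polynomial.Basic
import Mathlib.RingTheory.RootsOfUnity.AlgebraicallyClosed
import Mathlib.LinearAlgebra.Trace

/-! The Frobenius–Schur indicator is an integer; counting square roots of one. -/

set_option autoImplicit false
set_option linter.style.haveILetI false
open scoped Kronecker BigOperators ComplexConjugate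
open Representation Module

universe u

namespace Cfsg.Agent.Solv

variable {G : Type u} [Group G] [Fintype G]

/-- The average of `χ (s * s)`. -/
noncomputable def fsInd (χ : G → ℂ) : ℂ := (Nat.card G : ℂ)⁻¹ * ∑ s : G, χ (s * s)

theorem trace_idem_nat {ι : Type*} [Fintype ι] [DecidableEq ι] (P : Matrix ι ι ℂ) (h : P * P = P) :
    ∃ k : ℕ, P.trace = k := by
  refine ⟨finrank ℂ (LinearMap.range P.toLin'), ?_⟩
  have hi : IsIdempotentElem P.toLin' := by
    show P.toLin' * P.toLin' = P.toLin'
    rw [Module.End.mul_eq_comp, ← Matrix.toLin'_mul, h]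
  rw [← Matrix.trace_toLin'_eq]
  exact LinearMap.IsProj.trace (LinearMap.IsIdempotentElem.isProj_range _ hi)

theorem fsInd_int (χ : G → ℂ) (hχ : Cfsg.IsCharacter G χ) : ∃ z : ℤ, fsInd χ = z := by
  classical
  obtain ⟨n, ρ, rfl⟩ := hχ
  let A : G → Matrix (Fin n) (Fin n) ℂ := fun g => LinearMap.toMatrix' (ρ g)
  have hA : ∀ g h, A (g * h) = A g * A h := fun g h => by
    show LinearMap.toMatrix' (ρ (g * h)) = _
    rw [map_mul, LinearMap.toMatrix'_mul]
  let K : G → Matrix (Fin n × Fin n) (Fin n × Fin n) ℂ := fun g => A g ⊗ₖ A g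
  have hK : ∀ g h, K g * K h = K (g * h) := fun g h => by
    show A g ⊗ₖ A g * (A h ⊗ₖ A h) = A (g * h) ⊗ₖ A (g * h)
    rw [hA, Matrix.mul_kronecker_mul]
  let c : ℂ := (Nat.card G : ℂ)⁻¹
  have hc : c * (Nat.card G : ℂ) = 1 := inv_mul_cancel₀ (by exact_mod_cast Nat.card_pos.ne')
  let E : Matrix (Fin n × Fin n) (Fin n × Fin n) ℂ := c • ∑ g : G, K g
  have hKE : ∀ g, K g * E = E := fun g => by
    show K g * (c • _) = c • _
    rw [Matrix.mul_smul, Finset.mul_sum]
    congr 1
    simp only [hK]
    exact Equiv.sum_comp (Equiv.mulLeft g) K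
  have hEE : E * E = E := by
    show (c • ∑ g : G, K g) * E = E
    rw [Matrix.smul_mul, Finset.sum_mul]
    simp only [hKE, Finset.sum_const, Finset.card_univ, ← Nat.card_eq_fintype_card]
    rw [← Nat.cast_smul_eq_nsmul ℂ, smul_smul, hc, one_smul]
  let S : Matrix (Fin n × Fin n) (Fin n × Fin n) ℂ := fun i j => if i.swap = j then 1 else 0
  have hSmul : ∀ (M : Matrix (Fin n × Fin n) (Fin n × Fin n) ℂ) i j, (S * M) i j = M i.swap j := by
    intro M i j; rw [Matrix.mul_apply]; simp [S]
  have hmulS : ∀ (M : Matrix (Fin n × Fin n) (Fin n × Fin n) ℂ) i j, (M * S) i j = M i j.swap := by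
    intro M i j
    rw [Matrix.mul_apply, Finset.sum_eq_single j.swap]
    · simp [S]
    · intro b _ hb
      have : b.swap ≠ j := fun h => hb (by rw [← h, Prod.swap_swap])
      simp [S, this]
    · simp
  have hSK : ∀ g, S * K g = K g * S := fun g => by
    ext i j
    rw [hSmul, hmulS]
    simp [K, Matrix.kroneckerMap_apply, mul_comm]
  have hSE : S * E = E * S := by
    show S * (c • _) = (c • _) * S
    rw [Matrix.mul_smul, Matrix.smul_mul, Finset.mul_sum, Finset.sum_mul]
    simp only [hSK]
  have hSS : S * S = 1 := by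
    ext i j
    rw [hSmul]
    simp [S, Matrix.one_apply, Prod.swap_swap]
  let P : Matrix (Fin n × Fin n) (Fin n × Fin n) ℂ := (2 : ℂ)⁻¹ • (E + S * E)
  have hP : P * P = P := by
    have h1 : E * (S * E) = S * E := by rw [← mul_assoc, ← hSE, mul_assoc, hEE]
    have h2 : S * E * E = S * E := by rw [mul_assoc, hEE]
    have h3 : S * E * (S * E) = E := by
      rw [mul_assoc, h1, ← mul_assoc, hSS, one_mul]
    show ((2 : ℂ)⁻¹ • (E + S * E)) * ((2 : ℂ)⁻¹ • (E + S * E)) = _
    rw [Matrix.smul_mul, Matrix.mul_smul, smul_smul, add_mul, mul_add, mul_add, hEE, h1, h2, h3]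
    module
  obtain ⟨a, ha⟩ := trace_idem_nat E hEE
  obtain ⟨b, hb⟩ := trace_idem_nat P hP
  have hval : fsInd ρ.character = (S * E).trace := by
    show _ = (S * (c • _)).trace
    rw [Matrix.mul_smul, Finset.mul_sum, Matrix.trace_smul, Matrix.trace_sum, smul_eq_mul]
    show c * _ = _
    congr 1
    refine Finset.sum_congr rfl fun g _ => ?_
    have : ρ.character (g * g) = (A g * A g).trace := by
      rw [← hA]
      show LinearMap.trace ℂ _ (ρ (g * g)) = _
      rw [LinearMap.trace_eq_matrix_trace ℂ (Pi.basisFun ℂ (Fin n)), LinearMap.toMatrix_eq_toMatrix']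
    rw [this]
    simp only [Matrix.trace, Matrix.diag, hSmul, Fintype.sum_prod_type]
    simp [K, Matrix.mul_apply, Matrix.kroneckerMap_apply]
    rw [Finset.sum_comm]
  refine ⟨2 * (b : ℤ) - a, ?_⟩
  have : (S * E).trace = 2 * P.trace - E.trace := by
    show _ = 2 * ((2 : ℂ)⁻¹ • (E + S * E)).trace - _
    rw [Matrix.trace_smul, Matrix.trace_add, smul_eq_mul]
    ring
  rw [hval, this, ha, hb]
  push_cast
  ring

theorem card_sq_eq_one : (Nat.card {s : G // s * s = 1} : ℂ) =
    ∑ χ : Cfsg.IrrCharacter G, fsInd (χ : G → ℂ) * (χ : G → ℂ) 1 := by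
  classical
  symm
  calc ∑ χ : Cfsg.IrrCharacter G, fsInd (χ : G → ℂ) * (χ : G → ℂ) 1
      = (Nat.card G : ℂ)⁻¹ * ∑ s : G, ∑ χ : Cfsg.IrrCharacter G,
          (χ : G → ℂ) 1 * (χ : G → ℂ) (s * s) := by
        rw [Finset.sum_comm, Finset.mul_sum]
        refine Finset.sum_congr rfl fun χ _ => ?_
        simp only [fsInd]
        rw [mul_assoc, Finset.sum_mul]
        congr 1
        exact Finset.sum_congr rfl fun s _ => mul_comm _ _
    _ = (Nat.card G : ℂ)⁻¹ * ∑ s : G, (if s * s = 1 then (Nat.card G : ℂ) else 0) := by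
        simp only [Char.sum_irr_apply_one_mul]
    _ = _ := by
        rw [← Finset.sum_filter, Finset.sum_const, nsmul_eq_mul, ← mul_assoc, mul_comm _ ((Finset.card _ : ℕ) : ℂ),
          mul_assoc, inv_mul_cancel₀ (by exact_mod_cast Nat.card_pos.ne' : (Nat.card G : ℂ) ≠ 0), mul_one,
          Nat.card_eq_fintype_card, Fintype.card_subtype]

theorem norm_irr_le (χ : Cfsg.IrrCharacter G) (g : G) :
    ∃ n : ℕ, (χ : G → ℂ) 1 = n ∧ n ∣ Nat.card G ∧ ‖(χ : G → ℂ) g‖ ≤ n := by
  obtain ⟨n, ρ, hρ, he⟩ := χ.2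
  haveI := hρ
  refine ⟨n, by rw [← he]; simp, ?_, ?_⟩
  · simpa using Char.finrank_dvd_card ρ
  · obtain ⟨b, ω, hb, hω⟩ := Char.exists_eigenbasis ρ g (isOfFinOrder_of_finite g)
    rw [← he]
    show ‖LinearMap.trace ℂ _ (ρ g)‖ ≤ _
    rw [Char.trace_of_eigenbasis _ b ω hb]
    refine (norm_sum_le _ _).trans ?_
    have : ∀ i, ‖ω i‖ = 1 := fun i => Complex.norm_eq_one_of_pow_eq_one (hω i) (orderOf_pos g).ne'
    simp [this]

section Twist

variable {Q : Type u} [Group Q]

/-- An irreducible character times a linear one. -/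
theorem isIrrCharacter_twist {χ : Q → ℂ} (hχ : Cfsg.IsIrrCharacter Q χ) (f : Q →* ℂˣ) :
    Cfsg.IsIrrCharacter Q (fun g => (f g : ℂ) * χ g) := by
  obtain ⟨n, ρ, hρ, rfl⟩ := hχ
  let σ : Representation ℂ Q (Fin n → ℂ) :=
    { toFun := fun g => (f g : ℂ) • ρ g
      map_one' := by simp
      map_mul' := fun a b => by
        rw [map_mul, map_mul, Units.val_mul, smul_mul_smul_comm] }
  refine ⟨n, σ, ?_, ?_⟩
  · have e : Subrepresentation ρ ≃o Subrepresentation σ :=
      { toFun := fun W => ⟨W.toSubmodule, fun g v hv => W.toSubmodule.smul_mem _ (W.apply_mem_toSubmodule g hv)⟩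
        invFun := fun W => ⟨W.toSubmodule, fun g v hv => by
          have h := W.apply_mem_toSubmodule g hv
          have h' := W.toSubmodule.smul_mem ((f g : ℂ)⁻¹) h
          rwa [show σ g v = (f g : ℂ) • ρ g v from rfl, inv_smul_smul₀ (Units.ne_zero _)] at h'⟩
        left_inv := fun W => rfl
        right_inv := fun W => rfl
        map_rel_iff' := Iff.rfl }
    exact (OrderIso.isSimpleOrder_iff e).1 hρ
  · funext g
    show LinearMap.trace ℂ _ ((f g : ℂ) • ρ g) = _
    rw [map_smul, smul_eq_mul]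
    rfl

end Twist

/-- A finite 2-group with at least `2k+1` generators has a multiple of `2^(k+1)` square roots of one. -/
theorem two_pow_dvd_card_sq (hG : IsPGroup 2 G) (k : ℕ)
    (hgen : 2 ^ (2 * k + 1) ≤ Nat.card (G ⧸ frattini G)) :
    2 ^ (k + 1) ∣ Nat.card {s : G // s * s = 1} := by
  classical
  haveI := Fact.mk Nat.prime_two
  let π := QuotientGroup.mk' (frattini G)
  -- squares lie in the Frattini subgroup
  have hsq : ∀ g : G, g * g ∈ frattini G := by
    intro g
    haveI := hG.isNilpotent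
    rw [frattini, Order.radical, Subgroup.mem_iInf]
    intro M
    rw [Subgroup.mem_iInf]
    intro hM
    haveI : M.Normal := Subgroup.NormalizerCondition.normal_of_coatom M
      Group.normalizerCondition_of_isNilpotent hM
    obtain ⟨j, hj⟩ := IsPGroup.iff_card.mp (hG.to_quotient M)
    have hnt : Nontrivial (G ⧸ M) := QuotientGroup.nontrivial_iff.mpr hM.1
    obtain ⟨y, hy⟩ := exists_prime_orderOf_dvd_card' (G := G ⧸ M) 2 (by
      rw [hj]; exact dvd_pow_self 2 (by rintro rfl; exact (Finite.one_lt_card (α := G ⧸ M)).ne' (by simpa using hj)))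
    have htop : (Subgroup.zpowers y).comap (QuotientGroup.mk' M) = ⊤ := by
      apply hM.2
      refine lt_of_le_of_ne (fun x hx => ?_) fun h => ?_
      · rw [Subgroup.mem_comap, show (QuotientGroup.mk' M) x = 1 from (QuotientGroup.eq_one_iff x).mpr hx]
        exact one_mem _
      · obtain ⟨w, rfl⟩ := QuotientGroup.mk'_surjective M y
        have : w ∈ M := h ▸ Subgroup.mem_zpowers _
        rw [show (QuotientGroup.mk' M) w = 1 from (QuotientGroup.eq_one_iff w).mpr this, orderOf_one] at hy
        omega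
    have h1 : QuotientGroup.mk' M g ∈ Subgroup.zpowers y := by
      have : g ∈ (Subgroup.zpowers y).comap (QuotientGroup.mk' M) := htop ▸ Subgroup.mem_top g
      exact this
    obtain ⟨z, hz⟩ := h1
    rw [← QuotientGroup.eq_one_iff]
    show QuotientGroup.mk' M (g * g) = 1
    rw [map_mul, ← hz, ← zpow_add, ← two_mul, zpow_mul, zpow_ofNat, ← hy, pow_orderOf_eq_one, one_zpow]
  have hQ2 : ∀ q : G ⧸ frattini G, q * q = 1 := fun q => by
    obtain ⟨g, rfl⟩ := QuotientGroup.mk'_surjective (frattini G) q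
    rw [← map_mul]
    exact (QuotientGroup.eq_one_iff _).mpr (hsq g)
  have hQc : ∀ a b : G ⧸ frattini G, a * b = b * a := fun a b => by
    have hi : ∀ q : G ⧸ frattini G, q⁻¹ = q := fun q => inv_eq_of_mul_eq_one_right (hQ2 q)
    calc a * b = (a * b)⁻¹ := (hi _).symm
      _ = b * a := by rw [mul_inv_rev, hi, hi]
  letI : CommGroup (G ⧸ frattini G) :=
    { (inferInstance : Group (G ⧸ frattini G)) with mul_comm := hQc }
  obtain ⟨Λ, hΛ⟩ : ∃ d : ℕ, Nat.card (G ⧸ frattini G) = 2 ^ d := IsPGroup.iff_card.mp (hG.to_quotient _)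
  have hd : 2 * k + 1 ≤ Λ := by
    rw [hΛ] at hgen
    exact (Nat.pow_le_pow_iff_right (by norm_num)).mp hgen
  let L := (G ⧸ frattini G) →* ℂˣ
  haveI : Finite L := inferInstance
  haveI : Fintype L := Fintype.ofFinite L
  have hLcard : Nat.card L = 2 ^ Λ := by
    rw [← hΛ]
    exact CommGroup.card_monoidHom_of_hasEnoughRootsOfUnity (G := G ⧸ frattini G) (M := ℂ)
  have hLsq : ∀ (f : L) (g : G), (f (π g) : ℂ) * (f (π g) : ℂ) = 1 := by
    intro f g
    rw [← Units.val_mul, ← map_mul, ← map_mul, show π (g * g) = 1 from (QuotientGroup.eq_one_iff _).mpr (hsq g),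
      map_one, Units.val_one]
  letI act : MulAction L (Cfsg.IrrCharacter G) :=
    { smul := fun f χ => ⟨fun g => ((f.comp π) g : ℂ) * (χ : G → ℂ) g, isIrrCharacter_twist χ.2 (f.comp π)⟩
      one_smul := fun χ => Subtype.ext (funext fun g => by
        show (((1 : L).comp π) g : ℂ) * _ = _
        simp)
      mul_smul := fun f f' χ => Subtype.ext (funext fun g => by
        show (((f * f').comp π) g : ℂ) * _ = ((f.comp π) g : ℂ) * (((f'.comp π) g : ℂ) * _)
        rw [MonoidHom.comp_apply, MonoidHom.comp_apply, MonoidHom.comp_apply, ← mul_assoc, ← Units.val_mul]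
        rfl) }
  have smul_apply : ∀ (f : L) (χ : Cfsg.IrrCharacter G) (g : G),
      ((f • χ : Cfsg.IrrCharacter G) : G → ℂ) g = (f (π g) : ℂ) * (χ : G → ℂ) g := fun _ _ _ => rfl
  choose D hD hDdvd hDnorm using fun χ : Cfsg.IrrCharacter G => norm_irr_le χ (1 : G)
  choose W hW using fun χ : Cfsg.IrrCharacter G =>
    fsInd_int (χ : G → ℂ) (Char.isCharacter_of_isIrrCharacter χ.2)
  have hN : (Nat.card {s : G // s * s = 1} : ℤ) = ∑ χ : Cfsg.IrrCharacter G, W χ * D χ := by
    have h := card_sq_eq_one (G := G)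
    have h' : ((Nat.card {s : G // s * s = 1} : ℤ) : ℂ) = ((∑ χ : Cfsg.IrrCharacter G, W χ * D χ : ℤ) : ℂ) := by
      push_cast
      rw [h]
      exact Finset.sum_congr rfl fun χ _ => by rw [hW χ, hD χ]
    exact_mod_cast h'
  have hinvW : ∀ (f : L) χ, W (f • χ) = W χ ∧ D (f • χ) = D χ := by
    intro f χ
    constructor
    · have : fsInd ((f • χ : Cfsg.IrrCharacter G) : G → ℂ) = fsInd (χ : G → ℂ) := by
        simp only [fsInd, smul_apply]
        congr 1
        refine Finset.sum_congr rfl fun s _ => ?_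
        rw [map_mul, map_mul, Units.val_mul, hLsq, one_mul]
      rw [hW, hW] at this
      exact_mod_cast this
    · have : ((f • χ : Cfsg.IrrCharacter G) : G → ℂ) 1 = (χ : G → ℂ) 1 := by
        rw [smul_apply, map_one, map_one, Units.val_one, one_mul]
      rw [hD, hD] at this
      exact_mod_cast this
  -- stabilisers are small
  have hstab : ∀ χ : Cfsg.IrrCharacter G, Nat.card (MulAction.stabilizer L χ) ≤ D χ ^ 2 := by
    intro χ
    let St := MulAction.stabilizer L χ
    haveI : Fintype St := Fintype.ofFinite St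
    let K : Finset G := Finset.univ.filter fun g => ∀ f : St, (f : L) (π g) = 1
    have hsupp : ∀ g, g ∉ K → (χ : G → ℂ) g = 0 := by
      intro g hg
      simp only [K, Finset.mem_filter, Finset.mem_univ, true_and, not_forall] at hg
      obtain ⟨f, hf⟩ := hg
      have h1 := congrFun (congrArg Subtype.val (MulAction.mem_stabilizer_iff.mp f.2)) g
      rw [smul_apply] at h1
      rcases em ((χ : G → ℂ) g = 0) with h0 | h0
      · exact h0
      · exact absurd (Units.ext ((mul_eq_right₀ h0).mp h1)) hf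
    -- norm
    have h1 : (Nat.card G : ℂ) = ∑ g : G, (χ : G → ℂ) g * conj ((χ : G → ℂ) g) := by
      have := Char.classInner_irr_self χ
      rw [Cfsg.classInner] at this
      field_simp at this
      exact this.symm
    have h2 : (Nat.card G : ℝ) ≤ K.card * (D χ : ℝ) ^ 2 := by
      have h3 : (Nat.card G : ℝ) = ∑ g : G, ‖(χ : G → ℂ) g‖ ^ 2 := by
        have := congrArg Complex.re h1
        rw [Complex.re_sum] at this
        rw [show ((Nat.card G : ℂ)).re = (Nat.card G : ℝ) from Complex.natCast_re _] at this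
        rw [this]
        refine Finset.sum_congr rfl fun g _ => ?_
        rw [Complex.mul_conj, Complex.ofReal_re, Complex.normSq_eq_norm_sq]
      rw [h3, ← Finset.sum_subset (Finset.subset_univ K) (fun g _ hg => by simp [hsupp g hg])]
      refine (Finset.sum_le_card_nsmul _ _ ((D χ : ℝ) ^ 2) fun g _ => ?_).trans (by simp)
      obtain ⟨m, hm, -, hm'⟩ := norm_irr_le χ g
      have : m = D χ := by
        have := hm.symm.trans (hD χ)
        exact_mod_cast this
      exact pow_le_pow_left₀ (norm_nonneg _) (this ▸ hm') 2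
    -- orthogonality
    have h4 : (K.card : ℂ) * (Nat.card St : ℂ) = (Nat.card G : ℂ) := by
      have hA : ∀ f : St, ∑ g : G, (((f : L) (π g)) : ℂ) = if f = 1 then (Nat.card G : ℂ) else 0 := by
        intro f
        split_ifs with h
        · subst h
          refine (Finset.sum_congr rfl (g := fun _ => (1 : ℂ)) (fun g _ => rfl)).trans ?_
          simp [Nat.card_eq_fintype_card]
        · obtain ⟨g₀, hg₀⟩ : ∃ g₀, ((f : L) (π g₀) : ℂ) ≠ 1 := by
            by_contra hcon
            push Not at hcon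
            apply h
            apply Subtype.ext
            apply MonoidHom.ext
            intro q
            obtain ⟨g, rfl⟩ := QuotientGroup.mk'_surjective (frattini G) q
            exact Units.ext (hcon g)
          have h5 := Equiv.sum_comp (Equiv.mulLeft g₀) fun g => (((f : L) (π g)) : ℂ)
          simp only [Equiv.coe_mulLeft, map_mul, Units.val_mul, ← Finset.mul_sum] at h5
          by_contra hne
          exact hg₀ ((mul_eq_right₀ hne).mp h5)
      have hB : ∀ g : G, ∑ f : St, (((f : L) (π g)) : ℂ) = if g ∈ K then (Nat.card St : ℂ) else 0 := by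
        intro g
        split_ifs with h
        · simp only [K, Finset.mem_filter, Finset.mem_univ, true_and] at h
          simp [h, Nat.card_eq_fintype_card]
        · simp only [K, Finset.mem_filter, Finset.mem_univ, true_and, not_forall] at h
          obtain ⟨f₀, hf₀⟩ := h
          have h5 := Equiv.sum_comp (Equiv.mulLeft f₀) fun f : St => (((f : L) (π g)) : ℂ)
          have h6 : ∀ f : St, (((f₀ * f : St) : L) (π g) : ℂ) = ((f₀ : L) (π g) : ℂ) * ((f : L) (π g) : ℂ) :=
            fun _ => rfl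
          simp only [Equiv.coe_mulLeft, h6, ← Finset.mul_sum] at h5
          by_contra hne
          exact hf₀ (Units.ext (by simpa using (mul_eq_right₀ hne).mp h5))
      have := Finset.sum_comm (s := (Finset.univ : Finset G)) (t := (Finset.univ : Finset St))
        (f := fun g f => (((f : L) (π g)) : ℂ))
      simp only [hA, hB] at this
      simpa using this
    have h4' : (K.card : ℝ) * Nat.card St = Nat.card G := by exact_mod_cast h4
    have hKpos : (0 : ℝ) < K.card := by
      have : 0 < (Nat.card G : ℝ) := by exact_mod_cast Nat.card_pos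
      rcases Nat.eq_zero_or_pos K.card with h | h
      · rw [h, Nat.cast_zero, zero_mul] at h4'
        exact absurd h4' this.ne
      · exact_mod_cast h
    have : (Nat.card St : ℝ) ≤ ((D χ ^ 2 : ℕ) : ℝ) := by
      push_cast
      rw [← h4'] at h2
      exact le_of_mul_le_mul_left h2 hKpos
    exact_mod_cast this
  -- divisibility orbit by orbit
  have horb : ∀ χ : Cfsg.IrrCharacter G, (2 ^ (k + 1) : ℕ) ∣ Nat.card (MulAction.orbit L χ) * D χ := by
    intro χ
    obtain ⟨N, hN⟩ := IsPGroup.iff_card.mp hG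
    obtain ⟨e, -, he⟩ := (Nat.dvd_prime_pow Nat.prime_two).mp (hN ▸ hDdvd χ)
    obtain ⟨s, hs', hs⟩ := (Nat.dvd_prime_pow Nat.prime_two).mp
      (hLcard ▸ Subgroup.card_subgroup_dvd_card (MulAction.stabilizer L χ))
    have hmul : Nat.card (MulAction.orbit L χ) * 2 ^ s = 2 ^ Λ := by
      rw [← hs, ← hLcard, ← Nat.card_prod]
      exact Nat.card_congr (MulAction.orbitProdStabilizerEquivGroup L χ)
    have horbit : Nat.card (MulAction.orbit L χ) = 2 ^ (Λ - s) := by
      rw [show 2 ^ Λ = 2 ^ (Λ - s) * 2 ^ s by rw [← pow_add, Nat.sub_add_cancel hs']] at hmul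
      exact Nat.eq_of_mul_eq_mul_right (by positivity) hmul
    have hse : s ≤ 2 * e := by
      have h := hstab χ
      rw [hs, he, ← pow_mul, mul_comm] at h
      exact (Nat.pow_le_pow_iff_right (by norm_num)).mp h
    rw [horbit, he, ← pow_add]
    exact pow_dvd_pow 2 (by omega)
  have key : ((2 ^ (k + 1) : ℕ) : ℤ) ∣ ∑ χ : Cfsg.IrrCharacter G, W χ * D χ := by
    let q : Cfsg.IrrCharacter G → Quotient (MulAction.orbitRel L (Cfsg.IrrCharacter G)) := Quotient.mk _
    haveI : Fintype (Quotient (MulAction.orbitRel L (Cfsg.IrrCharacter G))) := Fintype.ofFinite _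
    rw [← Finset.sum_fiberwise Finset.univ q]
    refine Finset.dvd_sum fun o _ => ?_
    induction o using Quotient.inductionOn with
    | _ χ =>
      have hmem : ∀ ψ, ψ ∈ Finset.univ.filter (fun ψ => q ψ = Quotient.mk _ χ) ↔ ψ ∈ MulAction.orbit L χ := by
        intro ψ
        simp only [Finset.mem_filter, Finset.mem_univ, true_and, q]
        exact Quotient.eq.trans MulAction.orbitRel_apply
      rw [Finset.sum_congr rfl (g := fun _ => W χ * D χ) fun ψ hψ => by
        obtain ⟨f, rfl⟩ := (hmem ψ).mp hψ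
        rw [(hinvW f χ).1, (hinvW f χ).2]]
      rw [Finset.sum_const, nsmul_eq_mul]
      obtain ⟨t, ht⟩ := horb χ
      refine ⟨W χ * t, ?_⟩
      have hcard : (Finset.univ.filter (fun ψ => q ψ = Quotient.mk _ χ)).card = Nat.card (MulAction.orbit L χ) := by
        rw [Nat.card_coe_set_eq, ← Set.ncard_coe_finset]
        congr 1
        ext ψ
        exact hmem ψ
      rw [hcard]
      have ht' : ((Nat.card (MulAction.orbit L χ) * D χ : ℕ) : ℤ) = ((2 ^ (k + 1) * t : ℕ) : ℤ) := by rw [ht]
      push_cast at ht' ⊢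
      linear_combination (W χ) * ht'
  rw [← hN] at key
  exact_mod_cast key

end Cfsg.Agent.Solv
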