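import Cfsg.Agent.Solv.Hall
import Cfsg.Agent.Char.Integral

/-! Wielandt's three subgroups theorem, Hall's converse, Sylow systems. -/

set_option autoImplicit false
set_option linter.style.haveILetI false
open Pointwise

universe u

namespace Cfsg.Agent.Solv

variable {G : Type u} [Group G]

theorem index_inf_of_coprime [Finite G] {H K : Subgroup G} (h : H.index.Coprime K.index) :
    (H ⊓ K).index = H.index * K.index :=
  le_antisymm Subgroup.index_inf_le
    (Nat.le_of_dvd (Nat.pos_of_ne_zero Subgroup.index_ne_zero_of_finite)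
      (h.mul_dvd_of_dvd_of_dvd (Subgroup.index_dvd_of_le inf_le_left)
        (Subgroup.index_dvd_of_le inf_le_right)))

theorem mem_mul_of_coprime_index [Finite G] {H K : Subgroup G} (h : H.index.Coprime K.index) (g : G) :
    ∃ x ∈ H, ∃ y ∈ K, g = x * y := by
  have h2 := Subgroup.relIndex_mul_index (show H ⊓ K ≤ H from inf_le_left)
  rw [index_inf_of_coprime h, Subgroup.inf_relIndex_left] at h2
  have h4 : K.relIndex H = K.index := by
    have : K.relIndex H * H.index = K.index * H.index := by rw [h2, mul_comm]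
    exact Nat.eq_of_mul_eq_mul_right (Nat.pos_of_ne_zero Subgroup.index_ne_zero_of_finite) this
  let f : H ⧸ K.subgroupOf H → G ⧸ K := Quotient.map' (fun x : H => (x : G)) (fun a b hab => by
    rw [QuotientGroup.leftRel_apply] at hab ⊢
    simpa [Subgroup.mem_subgroupOf] using hab)
  have hf : Function.Injective f := by
    intro a b
    induction a using Quotient.inductionOn'
    induction b using Quotient.inductionOn'
    intro hab
    apply Quotient.sound'
    have := Quotient.exact' hab
    rw [QuotientGroup.leftRel_apply] at this ⊢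
    simpa [Subgroup.mem_subgroupOf] using this
  obtain ⟨a, ha⟩ := ((Nat.bijective_iff_injective_and_card f).mpr ⟨hf, h4⟩).2 (g : G ⧸ K)
  induction a using Quotient.inductionOn' with
  | _ x => exact ⟨x, x.2, (x : G)⁻¹ * g, QuotientGroup.eq.mp ha, by group⟩

/-- Wielandt: a group with a triple of solvable factors is solvable. -/
theorem isSolvable_of_three [Finite G] (H₁ H₂ H₃ : Subgroup G)
    (h₁ : Group.IsSolvable H₁) (h₂ : Group.IsSolvable H₂) (h₃ : Group.IsSolvable H₃)
    (h12 : ∀ g : G, ∃ x ∈ H₁, ∃ y ∈ H₂, g = x * y) (h13 : ∀ g : G, ∃ x ∈ H₁, ∃ y ∈ H₃, g = x * y)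
    (hcop : H₂.index.Coprime H₃.index) : Group.IsSolvable G := by
  suffices main : ∀ (n : ℕ) {G : Type u} [Group G] [Finite G], Nat.card G ≤ n →
      ∀ H₁ H₂ H₃ : Subgroup G, Group.IsSolvable H₁ → Group.IsSolvable H₂ → Group.IsSolvable H₃ →
      (∀ g : G, ∃ x ∈ H₁, ∃ y ∈ H₂, g = x * y) → (∀ g : G, ∃ x ∈ H₁, ∃ y ∈ H₃, g = x * y) →
      H₂.index.Coprime H₃.index → Group.IsSolvable G from
    main _ le_rfl H₁ H₂ H₃ h₁ h₂ h₃ h12 h13 hcop
  clear * -
  intro n
  induction n with
  | zero => intro G _ _ h; exact absurd h (Nat.not_le.mpr Nat.card_pos)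
  | succ n ih =>
    intro G _ _ hcard H₁ H₂ H₃ h₁ h₂ h₃ h12 h13 hcop
    by_cases hbot : H₁ = ⊥
    · haveI := h₂
      refine Group.isSolvable_of_surjective (f := H₂.subtype) fun g => ?_
      obtain ⟨x, hx, y, hy, rfl⟩ := h12 g
      rw [hbot, Subgroup.mem_bot] at hx
      exact ⟨⟨y, hy⟩, by simp [hx]⟩
    haveI := h₁
    haveI : Nontrivial H₁ := (Subgroup.nontrivial_iff_ne_bot H₁).mpr hbot
    obtain ⟨M, hMn, hM0, -, hMmin⟩ :=
      exists_minimal_normal (N := (⊤ : Subgroup H₁)) inferInstance top_ne_bot
    obtain ⟨-, p, hp, -, hMp, -⟩ := minimal_normal_solvable hMn hM0 hMmin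
    haveI := Fact.mk hp
    obtain ⟨M', hM'⟩ : ∃ M', M' = M.map H₁.subtype := ⟨_, rfl⟩
    have hM'p : IsPGroup p M' := hM' ▸ hMp.map _
    have hM'0 : M' ≠ ⊥ := by
      rw [hM', Ne, Subgroup.map_eq_bot_iff_of_injective _ H₁.subtype_injective]
      exact hM0
    have key : ∀ K : Subgroup G, Group.IsSolvable K → (∀ g : G, ∃ x ∈ H₁, ∃ y ∈ K, g = x * y) →
        ¬ p ∣ K.index → Group.IsSolvable G := by
      intro K hK hprod hpK
      have hfix : ∃ x : G ⧸ K, ∀ m : M', (m : G) • x = x := by
        obtain ⟨x, hx⟩ := hM'p.nonempty_fixed_point_of_prime_not_dvd_card (G ⧸ K) hpK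
        exact ⟨x, fun m => hx m⟩
      obtain ⟨q, hq⟩ := hfix
      obtain ⟨g, rfl⟩ := QuotientGroup.mk_surjective q
      obtain ⟨a, ha, b, hb, rfl⟩ := hprod g
      have hMK : M' ≤ K := by
        intro m hm
        have hm' : a * m * a⁻¹ ∈ M' := by
          rw [hM'] at hm ⊢
          obtain ⟨m₀, hm₀, rfl⟩ := hm
          exact ⟨⟨a, ha⟩ * m₀ * (⟨a, ha⟩ : H₁)⁻¹, hMn.conj_mem _ hm₀ _, by simp⟩
        have h := hq ⟨_, hm'⟩
        rw [MulAction.Quotient.smul_coe, QuotientGroup.eq] at h
        simp only [smul_eq_mul] at h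
        have h' := K.mul_mem (K.mul_mem hb h) (inv_mem hb)
        simpa [mul_assoc] using h'
      obtain ⟨N, hN⟩ : ∃ N, N = Subgroup.normalClosure (M' : Set G) := ⟨_, rfl⟩
      have hNK : N ≤ K := by
        rw [hN, Subgroup.normalClosure, Subgroup.closure_le]
        intro x hx
        obtain ⟨m, hm, hmx⟩ := Group.mem_conjugatesOfSet_iff.mp hx
        obtain ⟨c, rfl⟩ := isConj_iff.mp hmx
        obtain ⟨s, hs, t, ht, hst⟩ := hprod c⁻¹
        have hm' : s⁻¹ * m * s ∈ M' := by
          rw [SetLike.mem_coe] at hm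
          rw [hM'] at hm ⊢
          obtain ⟨m₀, hm₀, rfl⟩ := hm
          exact ⟨(⟨s, hs⟩ : H₁)⁻¹ * m₀ * ⟨s, hs⟩, by simpa using hMn.conj_mem _ hm₀ (⟨s, hs⟩ : H₁)⁻¹, by simp⟩
        have hc : c = t⁻¹ * s⁻¹ := by rw [← mul_inv_rev, ← hst, inv_inv]
        have : c * m * c⁻¹ = t⁻¹ * (s⁻¹ * m * s) * t := by rw [hc]; group
        rw [SetLike.mem_coe, this]
        exact K.mul_mem (K.mul_mem (inv_mem ht) (hMK hm')) ht
      haveI : N.Normal := hN ▸ Subgroup.normalClosure_normal
      have hN0 : N ≠ ⊥ := fun h => hM'0 (le_bot_iff.mp ((Subgroup.subset_normalClosure.trans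
        (by rw [← hN, h]) : (M' : Set G) ⊆ ((⊥ : Subgroup G) : Set G))))
      haveI := hK
      haveI : Group.IsSolvable N :=
        Group.isSolvable_of_isSolvable_injective (Subgroup.inclusion_injective hNK)
      let f := QuotientGroup.mk' N
      have hf : Function.Surjective f := QuotientGroup.mk'_surjective N
      have hlt : Nat.card (G ⧸ N) ≤ n := by
        have h1 : Nat.card N * Nat.card (G ⧸ N) = Nat.card G := N.card_mul_index
        have h2 : 2 ≤ Nat.card N := Subgroup.one_lt_card_iff_ne_bot _ |>.mpr hN0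
        have h4 : 0 < Nat.card (G ⧸ N) := Nat.card_pos
        nlinarith
      have hs : ∀ H : Subgroup G, Group.IsSolvable H → Group.IsSolvable (H.map f) := fun H hH => by
        haveI := hH
        exact Group.isSolvable_of_surjective (f.subgroupMap_surjective H)
      have hprod' : ∀ H : Subgroup G, (∀ g : G, ∃ x ∈ H₁, ∃ y ∈ H, g = x * y) →
          ∀ q : G ⧸ N, ∃ x ∈ H₁.map f, ∃ y ∈ H.map f, q = x * y := by
        intro H hH q
        obtain ⟨g, rfl⟩ := hf q
        obtain ⟨x, hx, y, hy, rfl⟩ := hH g
        exact ⟨f x, Subgroup.mem_map_of_mem _ hx, f y, Subgroup.mem_map_of_mem _ hy, map_mul _ _ _⟩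
      haveI : Group.IsSolvable (G ⧸ N) := ih hlt (H₁.map f) (H₂.map f) (H₃.map f) (hs _ h₁) (hs _ h₂)
        (hs _ h₃) (hprod' _ h12) (hprod' _ h13)
        ((hcop.coprime_dvd_left (Subgroup.index_map_dvd _ hf)).coprime_dvd_right
          (Subgroup.index_map_dvd _ hf))
      exact (Group.isSolvable_iff_subgroup_quotient N).2 ⟨inferInstance, inferInstance⟩
    by_cases hp2 : p ∣ H₂.index
    · exact key H₃ h₃ h13 fun h => Nat.not_coprime_of_dvd_of_dvd hp.one_lt hp2 h hcop
    · exact key H₂ h₂ h12 hp2

/-- Hall's converse. -/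
theorem isSolvable_of_complements [Finite G]
    (h : ∀ p : ℕ, p.Prime → ∃ H : Subgroup G, H.index = p ^ (Nat.card G).factorization p) :
    Group.IsSolvable G := by
  suffices main : ∀ (n : ℕ) {G : Type u} [Group G] [Finite G], Nat.card G ≤ n →
      (∀ p : ℕ, p.Prime → ∃ H : Subgroup G, H.index = p ^ (Nat.card G).factorization p) →
      Group.IsSolvable G from main _ le_rfl h
  clear * -
  intro n
  induction n with
  | zero => intro G _ _ h; exact absurd h (Nat.not_le.mpr Nat.card_pos)
  | succ n ih =>
    intro G _ _ hcard h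
    have hG0 : Nat.card G ≠ 0 := Nat.card_pos.ne'
    rcases Nat.lt_or_ge 2 (Nat.card G).primeFactors.card with h3 | h2
    · obtain ⟨p, q, r, hp, hq, hr, hpq, hpr, hqr⟩ := Finset.two_lt_card_iff.mp h3
      have hsub : ∀ s ∈ (Nat.card G).primeFactors, ∀ H : Subgroup G,
          H.index = s ^ (Nat.card G).factorization s → Group.IsSolvable H := by
        intro s hs H hH
        obtain ⟨hs1, hs2, -⟩ := Nat.mem_primeFactors.mp hs
        have hpos : 0 < (Nat.card G).factorization s := hs1.factorization_pos_of_dvd hG0 hs2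
        have hmul := H.card_mul_index
        rw [hH] at hmul
        refine ih ?_ fun t ht => ?_
        · have h2 : 2 ≤ s ^ (Nat.card G).factorization s := Nat.one_lt_pow hpos.ne' hs1.one_lt
          have h4 : 0 < Nat.card H := Nat.card_pos
          nlinarith
        · have hfac : ∀ t : ℕ, t ≠ s → (Nat.card H).factorization t = (Nat.card G).factorization t := by
            intro t hts
            conv_rhs => rw [← hmul, Nat.factorization_mul Nat.card_pos.ne' (pow_ne_zero _ hs1.ne_zero),
              hs1.factorization_pow, Finsupp.add_apply, Finsupp.single_eq_of_ne hts, add_zero]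
          by_cases hts : t = s
          · subst hts
            refine ⟨⊤, ?_⟩
            have h1 : (Nat.card H * t ^ (Nat.card G).factorization t).factorization t =
                (Nat.card G).factorization t := by rw [hmul]
            rw [Nat.factorization_mul Nat.card_pos.ne' (pow_ne_zero _ hs1.ne_zero),
              hs1.factorization_pow, Finsupp.add_apply, Finsupp.single_eq_same] at h1
            rw [Subgroup.index_top, show (Nat.card H).factorization t = 0 by omega, pow_zero]
          · obtain ⟨K, hK⟩ := h t ht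
            refine ⟨K.subgroupOf H, ?_⟩
            have hc : H.index.Coprime K.index := by
              rw [hH, hK]
              exact Nat.coprime_pow_primes _ _ hs1 ht (Ne.symm hts)
            have h1 := Subgroup.relIndex_mul_index (show H ⊓ K ≤ H from inf_le_left)
            rw [index_inf_of_coprime hc, Subgroup.inf_relIndex_left] at h1
            rw [hfac t hts, ← hK]
            have h2 : K.relIndex H * H.index = K.index * H.index := by rw [h1, mul_comm]
            exact Nat.eq_of_mul_eq_mul_right (Nat.pos_of_ne_zero Subgroup.index_ne_zero_of_finite) h2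
      obtain ⟨A, hA⟩ := h p (Nat.prime_of_mem_primeFactors hp)
      obtain ⟨B, hB⟩ := h q (Nat.prime_of_mem_primeFactors hq)
      obtain ⟨C, hC⟩ := h r (Nat.prime_of_mem_primeFactors hr)
      have cop : ∀ {s t : ℕ} {X Y : Subgroup G}, s ∈ (Nat.card G).primeFactors →
          t ∈ (Nat.card G).primeFactors → s ≠ t → X.index = s ^ (Nat.card G).factorization s →
          Y.index = t ^ (Nat.card G).factorization t → X.index.Coprime Y.index := by
        intro s t X Y hs ht hst hX hY
        rw [hX, hY]
        exact Nat.coprime_pow_primes _ _ (Nat.prime_of_mem_primeFactors hs)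
          (Nat.prime_of_mem_primeFactors ht) hst
      exact isSolvable_of_three A B C (hsub p hp A hA) (hsub q hq B hB) (hsub r hr C hC)
        (fun g => mem_mul_of_coprime_index (cop hp hq hpq hA hB) g)
        (fun g => mem_mul_of_coprime_index (cop hp hr hpr hA hC) g) (cop hq hr hqr hB hC)
    · by_cases h1 : Nat.card G = 1
      · haveI : Subsingleton G := (Nat.card_eq_one_iff_unique.mp h1).1
        infer_instance
      obtain ⟨p, hp, hpd⟩ := Nat.exists_prime_and_dvd h1
      have hpm : p ∈ (Nat.card G).primeFactors := Nat.mem_primeFactors.mpr ⟨hp, hpd, hG0⟩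
      obtain ⟨q, hq, hsub⟩ : ∃ q : ℕ, q.Prime ∧ ∀ r ∈ (Nat.card G).primeFactors, r = p ∨ r = q := by
        by_cases hex : ∃ q ∈ (Nat.card G).primeFactors, q ≠ p
        · obtain ⟨q, hq, hqp⟩ := hex
          refine ⟨q, Nat.prime_of_mem_primeFactors hq, fun r hr => ?_⟩
          by_contra hr'
          rw [not_or] at hr'
          exact absurd (Finset.two_lt_card_iff.mpr ⟨p, q, r, hpm, hq, hr, hqp.symm, Ne.symm hr'.1, Ne.symm hr'.2⟩)
            (by omega)
        · push Not at hex
          exact ⟨p, hp, fun r hr => Or.inl (hex r hr)⟩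
      obtain ⟨a, b, hab⟩ : ∃ a b, Nat.card G = p ^ a * q ^ b := by
        obtain ⟨a, c, hc, hGc⟩ := Nat.exists_eq_pow_mul_and_not_dvd hG0 p hp.ne_one
        refine ⟨a, c.primeFactorsList.length, hGc.trans ?_⟩
        congr 1
        have hc0 : c ≠ 0 := fun h => hG0 (by rw [hGc, h, mul_zero])
        refine Nat.eq_prime_pow_of_unique_prime_dvd hc0 fun {d} hd hdc => ?_
        refine (hsub d (Nat.mem_primeFactors.mpr ⟨hd, hdc.trans (hGc ▸ dvd_mul_left _ _), hG0⟩)).resolve_left ?_
        rintro rfl
        exact hc hdc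
      exact Char.isSolvable_of_card_eq_pow_mul_pow G hp hq hab

/-- A finite set of primes, mapped into the type of primes. -/
def primeEmb (s : Finset ℕ) (h : ∀ q ∈ s, q.Prime) : {x : ℕ // x ∈ s} ↪ Nat.Primes :=
  ⟨fun q => ⟨q.1, h q.1 q.2⟩, fun _ _ e => Subtype.ext (congrArg (fun x : Nat.Primes => (x : ℕ)) e)⟩

/-- Pairwise permuting Sylow subgroups generate complements. -/
theorem card_finset_sup [Finite G] (S : (p : Nat.Primes) → Sylow (p : ℕ) G)
    (hS : ∀ p q : Nat.Primes, (S p : Set G) * (S q : Set G) = (S q : Set G) * (S p : Set G))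
    (T : Finset Nat.Primes) :
    Nat.card ↥(T.sup fun p => (S p : Subgroup G)) =
      ∏ p ∈ T, (p : ℕ) ^ (Nat.card G).factorization (p : ℕ) ∧
    ∀ r : Nat.Primes, ((T.sup fun p => (S p : Subgroup G) : Subgroup G) : Set G) * (S r : Set G) =
      (S r : Set G) * ((T.sup fun p => (S p : Subgroup G) : Subgroup G) : Set G) := by
  classical
  induction T using Finset.induction_on with
  | empty => simp
  | @insert a T ha ih =>
    obtain ⟨hc, hperm⟩ := ih
    obtain ⟨A, hA⟩ : ∃ A : Subgroup G, A = T.sup fun p => (S p : Subgroup G) := ⟨_, rfl⟩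
    rw [← hA] at hc hperm
    obtain ⟨D, hD⟩ : ∃ D : Subgroup G, (D : Set G) = (S a : Set G) * (A : Set G) := by
      refine ⟨{ carrier := (S a : Set G) * (A : Set G)
                one_mem' := ⟨1, one_mem (S a : Subgroup G), 1, one_mem A, one_mul 1⟩
                mul_mem' := ?_
                inv_mem' := ?_ }, rfl⟩
      · intro x y hx hy
        have : ((S a : Set G) * (A : Set G)) * ((S a : Set G) * (A : Set G)) = (S a : Set G) * (A : Set G) := by
          rw [mul_assoc, ← mul_assoc (A : Set G), hperm a, mul_assoc, ← mul_assoc (S a : Set G)]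
          rw [coe_mul_coe A]
          congr 1
          exact coe_mul_coe (S a : Subgroup G)
        rw [← this]
        exact Set.mul_mem_mul hx hy
      · intro x hx
        have : ((S a : Set G) * (A : Set G))⁻¹ = (S a : Set G) * (A : Set G) := by
          rw [mul_inv_rev, inv_coe_set, show ((S a : Set G))⁻¹ = (S a : Set G) from
            inv_coe_set (H := (S a : Subgroup G)), hperm a]
        show x⁻¹ ∈ (S a : Set G) * (A : Set G)
        rw [← this]
        exact Set.inv_mem_inv.mpr hx
    have hsup : (insert a T).sup (fun p => (S p : Subgroup G)) = D := by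
      rw [Finset.sup_insert, ← hA]
      apply le_antisymm
      · refine sup_le (fun x hx => ?_) (fun x hx => ?_) <;>
          rw [← SetLike.mem_coe, hD]
        · exact ⟨x, hx, 1, one_mem A, mul_one x⟩
        · exact ⟨1, one_mem (S a : Subgroup G), x, hx, one_mul x⟩
      · intro x hx
        rw [← SetLike.mem_coe, hD] at hx
        obtain ⟨y, hy, z, hz, rfl⟩ := hx
        exact mul_mem (Subgroup.mem_sup_left hy) (Subgroup.mem_sup_right hz)
    rw [hsup]
    refine ⟨?_, fun r => ?_⟩
    · rw [Finset.prod_insert ha, ← hc]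
      haveI := Fact.mk a.2
      rw [← (S a).card_eq_multiplicity]
      have hcop : (Nat.card (S a : Subgroup G)).Coprime (Nat.card A) := by
        rw [hc, (S a).card_eq_multiplicity]
        exact Nat.Coprime.prod_right fun p hp =>
          Nat.coprime_pow_primes _ _ a.2 p.2 fun h => ha (Nat.Primes.coe_nat_injective h ▸ hp)
      let f : ↥(S a : Subgroup G) × ↥A → D := fun x => ⟨(x.1 : G) * x.2, by
        rw [← SetLike.mem_coe, hD]; exact Set.mul_mem_mul x.1.2 x.2.2⟩
      have hbij : Function.Bijective f := by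
        constructor
        · intro x y hxy
          exact Subgroup.mul_injective_of_disjoint (Subgroup.disjoint_of_coprime_natCard hcop)
            (congrArg Subtype.val hxy)
        · intro d
          have hd : (d : G) ∈ (S a : Set G) * (A : Set G) := hD ▸ d.2
          obtain ⟨y, hy, z, hz, hyz⟩ := hd
          exact ⟨(⟨y, hy⟩, ⟨z, hz⟩), Subtype.ext hyz⟩
      rw [← Nat.card_congr (Equiv.ofBijective f hbij), Nat.card_prod]
    · rw [hD, mul_assoc, hperm r, ← mul_assoc, hS a r, mul_assoc]

theorem exists_complement_of_sylowSystem [Finite G] (S : (p : Nat.Primes) → Sylow (p : ℕ) G)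
    (hS : ∀ p q : Nat.Primes, (S p : Set G) * (S q : Set G) = (S q : Set G) * (S p : Set G))
    (p : ℕ) (hp : p.Prime) : ∃ H : Subgroup G, H.index = p ^ (Nat.card G).factorization p := by
  classical
  let T : Finset Nat.Primes :=
    ((Nat.card G).primeFactors.erase p).attach.map
      (primeEmb ((Nat.card G).primeFactors.erase p)
        fun q hq => Nat.prime_of_mem_primeFactors (Finset.mem_of_mem_erase hq))
  refine ⟨T.sup fun q => (S q : Subgroup G), ?_⟩
  have h := (card_finset_sup S hS T).1
  have hmul := (T.sup fun q => (S q : Subgroup G)).card_mul_index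
  have hprod : (∏ q ∈ T, (q : ℕ) ^ (Nat.card G).factorization (q : ℕ)) *
      p ^ (Nat.card G).factorization p = Nat.card G := by
    rw [Finset.prod_map]
    show (∏ q ∈ ((Nat.card G).primeFactors.erase p).attach, (q : ℕ) ^ (Nat.card G).factorization (q : ℕ)) * _ = _
    rw [Finset.prod_attach ((Nat.card G).primeFactors.erase p) (fun q => q ^ (Nat.card G).factorization q)]
    conv_rhs => rw [← Nat.prod_factorization_pow_eq_self (n := Nat.card G) Nat.card_pos.ne']
    rw [Finsupp.prod, Nat.support_factorization]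
    by_cases hd : p ∈ (Nat.card G).primeFactors
    · exact Finset.prod_erase_mul _ _ hd
    · rw [Finset.erase_eq_of_notMem hd]
      have h0 : (Nat.card G).factorization p = 0 := by
        rwa [← Nat.support_factorization, Finsupp.notMem_support_iff] at hd
      rw [h0, pow_zero, mul_one]
  rw [h] at hmul
  refine Nat.eq_of_mul_eq_mul_left ?_ (hmul.trans hprod.symm)
  exact Nat.pos_of_ne_zero fun h0 => Nat.card_pos.ne' (h.trans h0)

/-- Sylow systems exist in solvable groups. -/
theorem exists_sylowSystem [Finite G] [Group.IsSolvable G] :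
    ∃ S : (p : Nat.Primes) → Sylow (p : ℕ) G,
      ∀ p q : Nat.Primes, (S p : Set G) * (S q : Set G) = (S q : Set G) * (S p : Set G) := by
  classical
  have hK : ∀ p : Nat.Primes, ∃ K : Subgroup G,
      K.index = (p : ℕ) ^ (Nat.card G).factorization (p : ℕ) := by
    intro p
    obtain ⟨a, c, hc, hGc⟩ := Nat.exists_eq_pow_mul_and_not_dvd (Nat.card_pos (α := G)).ne' (p : ℕ) p.2.ne_one
    have hcop : c.Coprime ((p : ℕ) ^ a) := ((p.2.coprime_iff_not_dvd.mpr hc).pow_left a).symm
    obtain ⟨K, hK, -⟩ := hall_exists_dominating (hGc.trans (mul_comm _ _)) hcop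
    refine ⟨K, ?_⟩
    have h1 := K.card_mul_index
    rw [hK, hGc, mul_comm] at h1
    have hc0 : c ≠ 0 := fun h => (Nat.card_pos (α := G)).ne' (by rw [hGc, h, mul_zero])
    have hkey : K.index = (p : ℕ) ^ a := Nat.eq_of_mul_eq_mul_right (Nat.pos_of_ne_zero hc0) h1
    rw [hkey, hGc, Nat.factorization_mul (pow_ne_zero _ p.2.ne_zero) hc0, p.2.factorization_pow,
      Finsupp.add_apply, Finsupp.single_eq_same, Nat.factorization_eq_zero_of_not_dvd hc, add_zero]
  choose K hK using hK
  let P : Finset Nat.Primes :=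
    (Nat.card G).primeFactors.attach.map
      (primeEmb (Nat.card G).primeFactors fun q hq => Nat.prime_of_mem_primeFactors hq)
  have hPmem : ∀ q : Nat.Primes, q ∈ P ↔ (q : ℕ) ∈ (Nat.card G).primeFactors := by
    intro q
    simp only [P, Finset.mem_map, Finset.mem_attach, true_and, Subtype.exists, primeEmb, Function.Embedding.coeFn_mk]
    constructor
    · rintro ⟨a, ha, rfl⟩; exact ha
    · intro h; exact ⟨q, h, rfl⟩
  have hinf : ∀ T : Finset Nat.Primes,
      (T.inf K).index = ∏ q ∈ T, (q : ℕ) ^ (Nat.card G).factorization (q : ℕ) := by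
    intro T
    induction T using Finset.induction_on with
    | empty => simp
    | @insert a T ha ih =>
      rw [Finset.inf_insert, Finset.prod_insert ha, index_inf_of_coprime, hK, ih]
      rw [hK, ih]
      exact Nat.Coprime.prod_right fun q hq =>
        Nat.coprime_pow_primes _ _ a.2 q.2 fun h => ha (Nat.Primes.coe_nat_injective h ▸ hq)
  have hprodP : ∏ q ∈ P, (q : ℕ) ^ (Nat.card G).factorization (q : ℕ) = Nat.card G := by
    rw [Finset.prod_map]
    show ∏ q ∈ (Nat.card G).primeFactors.attach, (q : ℕ) ^ (Nat.card G).factorization (q : ℕ) = _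
    rw [Finset.prod_attach (Nat.card G).primeFactors (fun q => q ^ (Nat.card G).factorization q)]
    conv_rhs => rw [← Nat.prod_factorization_pow_eq_self (n := Nat.card G) Nat.card_pos.ne']
    rw [Finsupp.prod, Nat.support_factorization]
  have hcard : ∀ T : Finset Nat.Primes, T ⊆ P →
      Nat.card ↥((P \ T).inf K) = ∏ q ∈ T, (q : ℕ) ^ (Nat.card G).factorization (q : ℕ) := by
    intro T hT
    have h1 := ((P \ T).inf K).card_mul_index
    rw [hinf] at h1
    nth_rewrite 2 [← hprodP] at h1
    rw [← Finset.prod_sdiff hT, mul_comm] at h1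
    exact Nat.eq_of_mul_eq_mul_left
      (Finset.prod_pos fun q _ => pow_pos q.2.pos _) h1
  have hone : ∀ p : Nat.Primes, Nat.card ↥((P.erase p).inf K) =
      (p : ℕ) ^ (Nat.card G).factorization (p : ℕ) := by
    intro p
    by_cases hp : p ∈ P
    · rw [← Finset.sdiff_singleton_eq_erase, hcard _ (by simpa using hp), Finset.prod_singleton]
    · rw [Finset.erase_eq_of_notMem hp]
      have h0 := hcard ∅ (Finset.empty_subset _)
      rw [Finset.sdiff_empty] at h0
      rw [h0, Finset.prod_empty]
      have : (Nat.card G).factorization (p : ℕ) = 0 := by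
        rw [hPmem, ← Nat.support_factorization, Finsupp.notMem_support_iff] at hp
        exact hp
      rw [this, pow_zero]
  haveI : ∀ p : Nat.Primes, Fact (p : ℕ).Prime := fun p => ⟨p.2⟩
  refine ⟨fun p => Sylow.ofCard ((P.erase p).inf K) (hone p), fun p q => ?_⟩
  show (((P.erase p).inf K : Subgroup G) : Set G) * (((P.erase q).inf K : Subgroup G) : Set G) =
    (((P.erase q).inf K : Subgroup G) : Set G) * (((P.erase p).inf K : Subgroup G) : Set G)
  by_cases hpq : p = q
  · rw [hpq]
  by_cases hp : p ∈ P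
  swap
  · have : (P.erase p).inf K = ⊥ := by
      apply Subgroup.eq_bot_of_card_eq
      rw [hone p]
      rw [hPmem, ← Nat.support_factorization, Finsupp.notMem_support_iff] at hp
      rw [hp, pow_zero]
    rw [this]; simp
  by_cases hq : q ∈ P
  swap
  · have : (P.erase q).inf K = ⊥ := by
      apply Subgroup.eq_bot_of_card_eq
      rw [hone q]
      rw [hPmem, ← Nat.support_factorization, Finsupp.notMem_support_iff] at hq
      rw [hq, pow_zero]
    rw [this]; simp
  obtain ⟨D, hD⟩ : ∃ D : Subgroup G, D = (P \ {p, q}).inf K := ⟨_, rfl⟩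
  have hDcard : Nat.card D = Nat.card ↥((P.erase p).inf K) * Nat.card ↥((P.erase q).inf K) := by
    rw [hD, hcard _ (Finset.insert_subset hp (by simpa using hq)), Finset.prod_pair hpq, hone, hone]
  have hle : ∀ r, (r = p ∨ r = q) → (P.erase r).inf K ≤ D := by
    intro r hr
    rw [hD]
    refine Finset.inf_mono fun x hx => ?_
    simp only [Finset.mem_sdiff, Finset.mem_insert, Finset.mem_singleton, not_or] at hx
    refine Finset.mem_erase.mpr ⟨?_, hx.1⟩
    rcases hr with rfl | rfl
    · exact hx.2.1
    · exact hx.2.2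
  have heq : ∀ A B : Subgroup G, A ≤ D → B ≤ D → Nat.card D = Nat.card A * Nat.card B →
      (Nat.card A).Coprime (Nat.card B) → (A : Set G) * (B : Set G) = (D : Set G) := by
    intro A B hA hB hc hcop
    let f : A × B → D := fun x => ⟨(x.1 : G) * x.2, mul_mem (hA x.1.2) (hB x.2.2)⟩
    have hinj : Function.Injective f := fun x y hxy =>
      Subgroup.mul_injective_of_disjoint (Subgroup.disjoint_of_coprime_natCard hcop)
        (congrArg Subtype.val hxy)
    have hbij := (Nat.bijective_iff_injective_and_card f).mpr ⟨hinj, by rw [Nat.card_prod, hc]⟩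
    apply Set.Subset.antisymm
    · rintro _ ⟨a, ha, b, hb, rfl⟩; exact mul_mem (hA ha) (hB hb)
    · intro d hd
      obtain ⟨⟨a, b⟩, hab⟩ := hbij.2 ⟨d, hd⟩
      exact ⟨a, a.2, b, b.2, congrArg Subtype.val hab⟩
  have hcop : (Nat.card ↥((P.erase p).inf K)).Coprime (Nat.card ↥((P.erase q).inf K)) := by
    rw [hone, hone]
    exact Nat.coprime_pow_primes _ _ p.2 q.2 fun h => hpq (Nat.Primes.coe_nat_injective h)
  rw [heq _ _ (hle p (Or.inl rfl)) (hle q (Or.inr rfl)) hDcard hcop,
    heq _ _ (hle q (Or.inr rfl)) (hle p (Or.inl rfl)) (by rw [hDcard, mul_comm]) hcop.symm]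

end Cfsg.Agent.Solv
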